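import Cfsg.Agent.H16.BR.Idx
import Cfsg.Agent.H748.BR.OmDefs

/-!
# HUB BR: the field `pw` for `Ω(Q)`, dimension at least seven, all characteristics

`pw_om`: the image of `diag(a, a⁻¹, 1) ∈ SL_3(F) ≤ Ω(Q)`, `a` a generator of `Fˣ`.
-/

set_option autoImplicit false

namespace Cfsg.Agent.H212.BR

open Cfsg Cfsg.Agent.H748.BR Cfsg.Agent.H883.BR Cfsg.Agent.H16.BR QuadraticMap
  Cfsg.Agent.LieClassical.OrthCore Cfsg.Agent.LieClassical.OrthFinite Matrix

/-- `diag(a, a⁻¹, 1)` -/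
def dg {F : Type*} [Field F] (a : Fˣ) : SpecialLinearGroup (Fin 3) F :=
  ⟨diagonal ![(a : F), ((a⁻¹ : Fˣ) : F), 1], by
    rw [det_diagonal, Fin.prod_univ_three]
    simp⟩

section

variable {F : Type} [Field F] {ι : Type} [Fintype ι] [DecidableEq ι] {Q : QuadraticForm F (ι → F)}

/-- `SL_3(F) ≤ Ω(Q)` with its action on a totally singular subspace -/
theorem exists_sl_three_act [Finite F] (hQ : ∀ v, (∀ w, polar Q v w = 0) → v = 0) (h7 : 7 ≤ Fintype.card ι) :
    ∃ (e : Fin 3 → (ι → F)) (f : SpecialLinearGroup (Fin 3) F →* Om Q), Function.Injective (lc (F := F) e) ∧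
      ∀ A x, matF Q (f A) *ᵥ (lc e x) = lc e (mx A *ᵥ x) := by
  obtain ⟨e, f, h⟩ := exists_hypF (Q := Q) hQ 3 (by rwa [Module.finrank_fintype_fun_eq_card])
  let g : SpecialLinearGroup (Fin 3) F →* Cfsg.isometryGroup F ⇑Q :=
    (isometryEquiv Q).symm.toMonoidHom.comp h.toO
  have hmem : ∀ x, g x ∈ Omega F ⇑Q := by
    intro x
    have h1 : x ∈ commutator (SpecialLinearGroup (Fin 3) F) := by
      rw [Cfsg.Agent.LieClassical.SLGen.commutator_eq_top (by simp)]
      exact Subgroup.mem_top x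
    have h2 : g x ∈ (commutator (SpecialLinearGroup (Fin 3) F)).map g := ⟨x, h1, rfl⟩
    have h3 : (commutator (SpecialLinearGroup (Fin 3) F)).map g ≤ commutator (Cfsg.isometryGroup F ⇑Q) := by
      rw [commutator_def, commutator_def, Subgroup.map_commutator]
      exact Subgroup.commutator_mono le_top le_top
    exact h3 h2
  refine ⟨e, g.codRestrict _ hmem, ?_, ?_⟩
  · intro x y hxy
    have h1 := congrArg (al Q f) hxy
    rwa [h.al_f_e, h.al_f_e] at h1
  · intro A x
    have h1 := isometryEquiv_apply Q (g A) (lc e x)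
    have h2 : isometryEquiv Q (g A) = h.toO A := (isometryEquiv Q).apply_symm_apply _
    rw [h2] at h1
    have h3 : ((h.toO A : O Q) : (ι → F) ≃ₗ[F] (ι → F)) (lc e x) = TT Q e f (mx A) (mx A⁻¹)ᵀ (lc e x) := rfl
    rw [h3, TT_apply, h.al_f_e, h.al_e_e, mulVec_zero, sub_mulVec, one_mulVec] at h1
    have h4 : lc (F := F) f (0 : Fin 3 → F) = 0 := by
      rw [lc]
      exact Finset.sum_eq_zero fun i _ => by rw [Pi.zero_apply, zero_smul]
    rw [h4, add_zero, ← lc_add, add_sub_cancel] at h1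
    exact h1.symm

end

/-- **The field `pw` for `Ω(Q)`.** -/
theorem pw_om {F : Type} [Field F] [Fintype F] {ι : Type} [Fintype ι] [DecidableEq ι] {Q : QuadraticForm F (ι → F)}
    (K : Type) [Field K] [Algebra F K] (hQ : ∀ v, (∀ w, QuadraticMap.polar Q v w = 0) → v = 0)
    (h7 : 7 ≤ Fintype.card ι) : ∀ k, 0 < k → 2 * k + 1 < Fintype.card F → ∃ g : Om Q, ad (rho Q K) (g ^ k) ≠ 1 := by
  intro k hk hkq
  obtain ⟨e, f, hinj, hf⟩ := exists_sl_three_act hQ h7
  obtain ⟨a, ha⟩ := IsCyclic.exists_generator (α := Fˣ)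
  have hoa : orderOf a = Fintype.card F - 1 := by
    rw [orderOf_eq_card_of_forall_mem_zpowers ha, Nat.card_units, Nat.card_eq_fintype_card]
  have hak : a ^ k ≠ 1 := by
    intro h1
    have h2 := Nat.le_of_dvd hk (orderOf_dvd_of_pow_eq_one h1)
    omega
  refine ⟨f (dg a), fun had => ?_⟩
  have hx : ∀ (j : Fin 3) (c : F), (∀ v : F, mx (dg a) *ᵥ (Pi.single j v) = Pi.single j (c * v)) → ∀ (k : ℕ) (v : F),
      matF Q ((f (dg a)) ^ k) *ᵥ lc e (Pi.single j v) = lc e (Pi.single j (c ^ k * v)) := by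
    intro j c hj k
    induction k with
    | zero =>
      intro v
      rw [pow_zero, map_one, one_mulVec, pow_zero, one_mul]
    | succ k ih =>
      intro v
      rw [pow_succ, map_mul, ← mulVec_mulVec, hf, hj, ih, pow_succ, mul_assoc]
  have h0 : ∀ v : F, mx (dg a) *ᵥ (Pi.single 0 v) = Pi.single 0 ((a : F) * v) := by
    intro v
    have : mx (dg a) = diagonal ![(a : F), ((a⁻¹ : Fˣ) : F), 1] := rfl
    rw [this]
    funext i
    rw [mulVec_diagonal]
    fin_cases i <;> simp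
  have h2 : ∀ v : F, mx (dg a) *ᵥ (Pi.single 2 v) = Pi.single 2 ((1 : F) * v) := by
    intro v
    have : mx (dg a) = diagonal ![(a : F), ((a⁻¹ : Fˣ) : F), 1] := rfl
    rw [this]
    funext i
    rw [mulVec_diagonal]
    fin_cases i <;> simp
  have e0 := hx 0 a h0 k 1
  have e2 := hx 2 1 h2 k 1
  rw [one_pow, mul_one] at e2
  rw [mul_one] at e0
  have e0' : lc e (Pi.single (0 : Fin 3) ((a : F) ^ k)) = (a : F) ^ k • lc e (Pi.single (0 : Fin 3) (1 : F)) := by
    rw [← lc_smul]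
    congr 1
    rw [← Pi.single_smul, smul_eq_mul, mul_one]
  rw [e0'] at e0
  set w0 : ι → K := vK K (lc e (Pi.single (0 : Fin 3) (1 : F))) with hw0
  set w2 : ι → K := vK K (lc e (Pi.single (2 : Fin 3) (1 : F))) with hw2
  have r0 : rho Q K ((f (dg a)) ^ k) w0 = algebraMap F K ((a : F) ^ k) • w0 := by
    rw [hw0, rho_vK, e0, vK_smul]
  have r2 : rho Q K ((f (dg a)) ^ k) w2 = w2 := by
    rw [hw2, rho_vK, e2]
  have hlc0 : lc (F := F) e (0 : Fin 3 → F) = 0 := by
    rw [lc]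
    exact Finset.sum_eq_zero fun i _ => by rw [Pi.zero_apply, zero_smul]
  have hne : ∀ j : Fin 3, vK K (lc e (Pi.single j (1 : F))) ≠ (0 : ι → K) := by
    intro j hj
    have h3 : lc e (Pi.single j (1 : F)) = lc e (0 : Fin 3 → F) := by
      rw [hlc0]
      funext i
      exact (algebraMap F K).injective ((congrFun hj i).trans (map_zero _).symm)
    have h4 := congrFun (hinj h3) j
    rw [Pi.single_eq_same, Pi.zero_apply] at h4
    exact one_ne_zero h4
  obtain ⟨i, hi⟩ := Function.ne_iff.1 (hne 2)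
  rw [← hw2, Pi.zero_apply] at hi
  let φ : (ι → K) →ₗ[K] K := (w2 i)⁻¹ • LinearMap.proj i
  have hφ : φ w2 = 1 := by
    change (w2 i)⁻¹ • (w2 i) = 1
    rw [smul_eq_mul, inv_mul_cancel₀ hi]
  let X : Module.End K (ι → K) := φ.smulRight w0
  have hX : ∀ v, X v = φ v • w0 := fun v => rfl
  have h5 : rho Q K ((f (dg a)) ^ k) * X * rho Q K ((f (dg a)) ^ k)⁻¹ = X := by
    have := LinearMap.congr_fun had X
    exact this
  have h6 : rho Q K ((f (dg a)) ^ k) * X = X * rho Q K ((f (dg a)) ^ k) := by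
    have h7 : rho Q K ((f (dg a)) ^ k)⁻¹ * rho Q K ((f (dg a)) ^ k) = 1 := by
      rw [← map_mul, inv_mul_cancel, map_one]
    calc rho Q K ((f (dg a)) ^ k) * X = rho Q K ((f (dg a)) ^ k) * X *
          (rho Q K ((f (dg a)) ^ k)⁻¹ * rho Q K ((f (dg a)) ^ k)) := by rw [h7, mul_one]
      _ = (rho Q K ((f (dg a)) ^ k) * X * rho Q K ((f (dg a)) ^ k)⁻¹) * rho Q K ((f (dg a)) ^ k) := by
          rw [← mul_assoc]
      _ = _ := by rw [h5]
  have h8 := LinearMap.congr_fun h6 w2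
  rw [Module.End.mul_apply, Module.End.mul_apply, r2, hX, hφ, one_smul, r0] at h8
  obtain ⟨j, hj⟩ := Function.ne_iff.1 (hne 0)
  rw [← hw0, Pi.zero_apply] at hj
  have h9 := congrFun h8 j
  rw [Pi.smul_apply, smul_eq_mul] at h9
  have h10 : algebraMap F K ((a : F) ^ k) = 1 := mul_right_cancel₀ hj (by rw [h9, one_mul])
  apply hak
  apply Units.ext
  apply (algebraMap F K).injective
  rw [Units.val_pow_eq_pow_val, h10, Units.val_one, map_one]

end Cfsg.Agent.H212.BR
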